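import Mathlib.LinearAlgebra.Finsupp.LinearCombination
import Mathlib.LinearAlgebra.LinearIndependent.Basic
import Mathlib.LinearAlgebra.Basis.Basic

/-!
# Bases of filtered modules from bases of the graded pieces

`F` is an antitone filtration of an `R`-module `M` with `F 0 = ⊤`, and `x : σ → M` is a family of
elements with degrees `d s`, `x s ∈ F (d s)`, such that for every `n` the classes of the `x s` with `d s = n`
form a basis of `F n / F (n + 1)`. Then the classes of the `x s` with `d s ≤ m` form a basis
of `M / F (m + 1)`.
-/

set_option autoImplicit false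

namespace Groth.Agent.Ega4late.H514.FiltBasis

variable {R M Q σ : Type*} [Ring R] [AddCommGroup M] [Module R M] [AddCommGroup Q] [Module R Q]

/-- Linear independence modulo `F (m + 1)` of the elements of degree `≤ m`. -/
theorem linearIndepOn_of_graded (F : ℕ → Submodule R M) (hF : Antitone F)
    (d : σ → ℕ) (x : σ → M) (hx : ∀ s, x s ∈ F (d s))
    (hli : ∀ n, ∀ l ∈ Finsupp.supported R R {s | d s = n},
      Finsupp.linearCombination R x l ∈ F (n + 1) → l = 0)
    (m : ℕ) (q : M →ₗ[R] Q) (hq : LinearMap.ker q ≤ F (m + 1)) :
    LinearIndepOn R (fun s => q (x s)) {s | d s ≤ m} := by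
  classical
  rw [linearIndepOn_iff]
  intro l hl h0
  have hl' : ∀ s, l s ≠ 0 → d s ≤ m := fun s hs => by
    rw [Finsupp.mem_supported] at hl
    exact hl (Finsupp.mem_support_iff.2 hs)
  have h1 : Finsupp.linearCombination R x l ∈ F (m + 1) := by
    apply hq
    rw [LinearMap.mem_ker, ← LinearMap.comp_apply, ← h0]
    rw [Finsupp.linearCombination_apply, LinearMap.comp_apply, Finsupp.linearCombination_apply,
      map_finsuppSum]
    simp
  have key : ∀ k, ∀ s, d s = k → l s = 0 := by
    intro k
    induction k using Nat.strong_induction_on with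
    | _ k ih =>
      intro s hs
      by_cases hk : k ≤ m
      · have h2 : Finsupp.linearCombination R x (l.filter (fun s => d s = k)) ∈ F (k + 1) := by
          have e : l.filter (fun s => d s = k) = l - l.filter (fun s => ¬ d s = k) := by
            rw [eq_sub_iff_add_eq, Finsupp.filter_pos_add_filter_neg]
          rw [e, map_sub]
          apply Submodule.sub_mem
          · exact hF (by omega) h1
          · rw [Finsupp.linearCombination_apply]
            apply Submodule.sum_mem
            intro t ht
            rw [Finsupp.support_filter, Finset.mem_filter, Finsupp.mem_support_iff] at ht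
            have hkt : k < d t := by
              rcases lt_trichotomy (d t) k with h | h | h
              · exact absurd (ih _ h t rfl) ht.1
              · exact absurd h ht.2
              · exact h
            exact Submodule.smul_mem _ _ (hF hkt (hx t))
        have h3 := hli k _ (by
          rw [Finsupp.mem_supported]
          intro t ht
          rw [Finsupp.support_filter] at ht
          exact (Finset.mem_filter.1 ht).2) h2
        have h4 := DFunLike.congr_fun h3 s
        rw [Finsupp.filter_apply_pos (fun s => d s = k) l hs] at h4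
        simpa using h4
      · by_contra hne
        exact hk (hs ▸ hl' s hne)
  ext s
  exact key _ s rfl

/-- The elements of degree `≤ m` generate `M` modulo `F (m + 1)`. -/
theorem span_eq_top_of_graded (F : ℕ → Submodule R M) (hF0 : F 0 = ⊤)
    (d : σ → ℕ) (x : σ → M)
    (hspan : ∀ n, F n ≤ Submodule.span R (x '' {s | d s = n}) ⊔ F (n + 1))
    (m : ℕ) (q : M →ₗ[R] Q) (hsurj : Function.Surjective q) (hq : F (m + 1) ≤ LinearMap.ker q) :
    Submodule.span R ((fun s => q (x s)) '' {s | d s ≤ m}) = ⊤ := by
  set W := Submodule.span R ((fun s => q (x s)) '' {s | d s ≤ m}) with hW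
  have key : ∀ j ≤ m + 1, (F (m + 1 - j)).map q ≤ W := by
    intro j
    induction j with
    | zero =>
      intro _
      rintro _ ⟨y, hy, rfl⟩
      have : q y = 0 := hq hy
      rw [this]
      exact W.zero_mem
    | succ j ih =>
      intro hj
      have e : m + 1 - (j + 1) + 1 = m + 1 - j := by omega
      refine (Submodule.map_mono (hspan _)).trans ?_
      rw [Submodule.map_sup, e]
      refine sup_le ?_ (ih (by omega))
      rw [Submodule.map_span, Submodule.span_le]
      rintro _ ⟨_, ⟨s, hs, rfl⟩, rfl⟩
      refine Submodule.subset_span ⟨s, ?_, rfl⟩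
      have : d s = m + 1 - (j + 1) := hs
      change d s ≤ m
      omega
  have h := key (m + 1) le_rfl
  rw [Nat.sub_self, hF0, Submodule.map_top, LinearMap.range_eq_top.2 hsurj] at h
  exact top_le_iff.1 h

/-- The basis of `M / F (m + 1)` given by the elements of degree `≤ m`. -/
theorem exists_basis_of_graded (F : ℕ → Submodule R M) (hF : Antitone F) (hF0 : F 0 = ⊤)
    (d : σ → ℕ) (x : σ → M) (hx : ∀ s, x s ∈ F (d s))
    (hli : ∀ n, ∀ l ∈ Finsupp.supported R R {s | d s = n},
      Finsupp.linearCombination R x l ∈ F (n + 1) → l = 0)
    (hspan : ∀ n, F n ≤ Submodule.span R (x '' {s | d s = n}) ⊔ F (n + 1))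
    (m : ℕ) (q : M →ₗ[R] Q) (hsurj : Function.Surjective q) (hq : LinearMap.ker q = F (m + 1)) :
    ∃ b : Module.Basis {s // d s ≤ m} R Q, ∀ s, b s = q (x s.1) := by
  have h1 : LinearIndependent R (fun s : {s // d s ≤ m} => q (x s.1)) :=
    linearIndepOn_of_graded F hF d x hx hli m q hq.le
  have h2 : (⊤ : Submodule R Q) ≤ Submodule.span R (Set.range (fun s : {s // d s ≤ m} => q (x s.1))) := by
    rw [← span_eq_top_of_graded F hF0 d x hspan m q hsurj hq.ge, Set.image_eq_range]
    exact le_rfl
  exact ⟨Module.Basis.mk h1 h2, fun s => by rw [Module.Basis.mk_apply]⟩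

end Groth.Agent.Ega4late.H514.FiltBasis
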