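import Groth.Prelude.Def_PP16
import Groth.Agent.Ega4late.H518.SymFree
import Groth.Agent.Ega4late.H514.FiltBasis
import Mathlib.Data.Finsupp.Multiset

/-!
# The monomial basis of the principal parts of a differentially smooth algebra
-/

set_option autoImplicit false
universe u
open scoped TensorProduct
open scoped BigOperators
open PP16

noncomputable section

namespace Groth.Agent.Ega4late.H514.MonBasis

open Groth.Agent.Ega4late.H518 Groth.Agent.Ega4late.H514

section

variable (A B : Type u) [CommRing A] [CommRing B] [Algebra A B]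

/-- The element `1 ⊗ z - z ⊗ 1`. -/
def zt (z : B) : B ⊗[A] B := (1 : B) ⊗ₜ[A] z - z ⊗ₜ[A] (1 : B)

theorem zt_mem (z : B) : zt A B z ∈ KaehlerDifferential.ideal A B :=
  KaehlerDifferential.one_smul_sub_smul_one_mem_ideal A z

/-- The filtration by powers of the kernel of multiplication. -/
abbrev Fil (n : ℕ) : Submodule B (B ⊗[A] B) := (KaehlerDifferential.ideal A B ^ n).restrictScalars B

theorem mem_Fil {n : ℕ} {x : B ⊗[A] B} : x ∈ Fil A B n ↔ x ∈ KaehlerDifferential.ideal A B ^ n :=
  Iff.rfl

theorem Fil_antitone : Antitone (Fil A B) := fun _ _ h _ hx => Ideal.pow_le_pow_right h hx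

theorem Fil_zero : Fil A B 0 = ⊤ := by
  rw [eq_top_iff]
  intro x _
  rw [mem_Fil, pow_zero, Ideal.one_eq_top]
  trivial

/-- The projection `I^n → I^n / I^(n+1)`. -/
def qI (n : ℕ) : ↥((KaehlerDifferential.ideal A B ^ n).restrictScalars B) →ₗ[B] grI A B n :=
  Submodule.mkQ _

theorem qI_surjective (n : ℕ) : Function.Surjective (qI A B n) := Submodule.mkQ_surjective _

theorem qI_eq_zero_iff (n : ℕ) (x : ↥((KaehlerDifferential.ideal A B ^ n).restrictScalars B)) :
    qI A B n x = 0 ↔ (x : B ⊗[A] B) ∈ Fil A B (n + 1) := by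
  rw [qI, Submodule.mkQ_apply, Submodule.Quotient.mk_eq_zero]
  rfl

variable {A B} {ι : Type} [Fintype ι] (z : ι → B)

variable (A) in
/-- The monomials in the elements `1 ⊗ z_i - z_i ⊗ 1`. -/
def mon (p : ι → ℕ) : B ⊗[A] B := ∏ i, zt A B (z i) ^ p i

theorem mon_mem (p : ι → ℕ) : mon A z p ∈ Fil A B (∑ i, p i) := by
  rw [mem_Fil, mon, ← Finset.prod_pow_eq_pow_sum]
  exact Ideal.prod_mem_prod fun i _ => Ideal.pow_mem_pow (zt_mem A B _) _

theorem mon_count [DecidableEq ι] {κ : Type*} [Fintype κ] (f : κ → ι) :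
    mon A z (fun i => (Finset.univ.val.map f).count i) = ∏ k, zt A B (z (f k)) := by
  rw [mon]
  have h := Finset.prod_multiset_map_count (Finset.univ.val.map f) (fun i => zt A B (z i))
  rw [Multiset.map_map] at h
  change _ = (Multiset.map (fun k => zt A B (z (f k))) Finset.univ.val).prod
  rw [show (fun k => zt A B (z (f k))) = (fun i => zt A B (z i)) ∘ f from rfl, h]
  symm
  apply Finset.prod_subset (Finset.subset_univ _)
  intro i _ hi
  rw [Multiset.mem_toFinset, ← Multiset.count_eq_zero] at hi
  rw [hi, pow_zero]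

variable [DecidableEq ι]

/-- The class of the monomial attached to a multiset in the graded piece. -/
def grMon (n : ℕ) (s : Sym ι n) : grI A B n :=
  qI A B n ⟨mon A z (fun i => (s : Multiset ι).count i), by
    have := mon_mem (A := A) z (fun i => (s : Multiset ι).count i)
    rwa [Multiset.sum_count_eq_card (fun a _ => Finset.mem_univ a), Sym.card_coe] at this⟩

theorem exists_grBasis_aux (b : Module.Basis ι B (KaehlerDifferential A B))
    (hz : ∀ i, b i = KaehlerDifferential.D A B (z i)) (κ : Type u) [Fintype κ]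
    (φ : SymmetricPower B κ (KaehlerDifferential A B) →ₗ[B] grI A B (Fintype.card κ))
    (hφ : ∀ b : κ → B, φ (SymmetricPower.tprod B (fun i => KaehlerDifferential.D A B (b i))) =
      zetaProd A B b) (hbij : Function.Bijective φ) :
    ∃ c : Module.Basis (Sym ι (Fintype.card κ)) B (grI A B (Fintype.card κ)),
      ∀ s, c s = grMon z (Fintype.card κ) s := by
  refine ⟨(SymFree.symBasis b).map (LinearEquiv.ofBijective φ hbij), fun s => ?_⟩
  rw [Module.Basis.map_apply, LinearEquiv.ofBijective_apply, SymFree.symBasis_apply, SymFree.mono]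
  simp only [hz]
  rw [hφ]
  unfold zetaProd grMon qI
  rw [Submodule.mkQ_apply]
  congr 1
  apply Subtype.ext
  change ∏ i, zt A B (z (SymFree.rep s i)) = mon A z (fun i => (s : Multiset ι).count i)
  rw [← mon_count, SymFree.rep_spec]

/-- The class of the monomial attached to a multiindex in the graded piece, before projecting. -/
def monN (n : ℕ) (p : {p : ι → ℕ // ∑ i, p i = n}) :
    ↥((KaehlerDifferential.ideal A B ^ n).restrictScalars B) :=
  ⟨mon A z p.1, by have := mon_mem (A := A) z p.1; rwa [p.2] at this⟩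

/-- If `B` is differentially smooth and the `d z_i` are a basis of the differentials, then the monomials
of degree `n` are a basis of `I^n / I^(n+1)`. -/
theorem exists_grBasis (hB : IsDiffSmooth A B) (b : Module.Basis ι B (KaehlerDifferential A B))
    (hz : ∀ i, b i = KaehlerDifferential.D A B (z i)) (n : ℕ) :
    ∃ c : Module.Basis {p : ι → ℕ // ∑ i, p i = n} B (grI A B n),
      ∀ p, c p = qI A B n (monN z n p) := by
  obtain ⟨κ, hκ, hn⟩ : ∃ (κ : Type u) (_ : Fintype κ), Fintype.card κ = n :=
    ⟨ULift (Fin n), inferInstance, by simp⟩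
  subst hn
  obtain ⟨φ, hφ, hbij⟩ := hB.2 κ
  obtain ⟨c, hc⟩ := exists_grBasis_aux z b hz κ φ hφ hbij
  refine ⟨c.reindex (Sym.equivNatSumOfFintype ι (Fintype.card κ)), fun p => ?_⟩
  rw [Module.Basis.reindex_apply, hc, grMon]
  congr 1
  apply Subtype.ext
  change mon A z _ = mon A z p.1
  congr 1
  funext i
  have := Sym.coe_equivNatSumOfFintype_apply_apply ι (Fintype.card κ)
    ((Sym.equivNatSumOfFintype ι (Fintype.card κ)).symm p) i
  rw [Equiv.apply_symm_apply] at this
  exact this.symm

variable (A) in
/-- The conclusion of `exists_grBasis` for all degrees, as a property of `z`. -/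
def GrBasis : Prop := ∀ n, ∃ c : Module.Basis {p : ι → ℕ // ∑ i, p i = n} B (grI A B n),
      ∀ p, c p = qI A B n (monN z n p)

omit [DecidableEq ι] in
/-- From bases of the graded pieces to bases of the rings of principal parts. -/
theorem exists_basis_P (h : GrBasis A z) (m : ℕ) :
    ∃ b : Module.Basis {p : ι → ℕ // ∑ i, p i ≤ m} B (PP16.P m A B),
      ∀ p, b p = ∏ i, (PP16.dn m A B (z i) - algebraMap B (PP16.P m A B) (z i)) ^ (p.1 i) := by
  suffices H : ∃ b : Module.Basis {p : ι → ℕ // ∑ i, p i ≤ m} B (PP16.P m A B),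
      ∀ p, b p = (Ideal.Quotient.mkₐ B ((KaehlerDifferential.ideal A B) ^ (m + 1))).toLinearMap
        (mon A z p.1) by
    obtain ⟨b, hb⟩ := H
    refine ⟨b, fun p => ?_⟩
    rw [hb, mon, AlgHom.toLinearMap_apply, map_prod]
    refine Finset.prod_congr rfl fun i _ => ?_
    rw [map_pow]
    rfl
  refine FiltBasis.exists_basis_of_graded (Fil A B) (Fil_antitone A B) (Fil_zero A B)
    (fun p : ι → ℕ => ∑ i, p i) (mon A z) (mon_mem z) ?_ ?_ m
    (Ideal.Quotient.mkₐ B ((KaehlerDifferential.ideal A B) ^ (m + 1))).toLinearMap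
    Ideal.Quotient.mk_surjective ?_
  · intro n l hl h0
    obtain ⟨c, hc⟩ := h n
    have hl2 : (l.support : Set (ι → ℕ)) ⊆
        Set.range (Subtype.val : {p : ι → ℕ // ∑ i, p i = n} → (ι → ℕ)) := by
      rw [Subtype.range_coe_subtype]
      exact hl
    obtain ⟨l', hl'⟩ : ∃ l', Finsupp.mapDomain Subtype.val l' = l :=
      ⟨_, Finsupp.mapDomain_comapDomain _ Subtype.val_injective l hl2⟩
    subst hl'
    rw [Finsupp.linearCombination_mapDomain] at h0
    have h1 : Finsupp.linearCombination B (mon A z ∘ Subtype.val) l' =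
        (Finsupp.linearCombination B (monN (A := A) z n) l' :
          ↥((KaehlerDifferential.ideal A B ^ n).restrictScalars B)).1 := by
      change _ = ((KaehlerDifferential.ideal A B ^ n).restrictScalars B).subtype _
      rw [← LinearMap.comp_apply, ← Finsupp.linearCombination_linear_comp]
      rfl
    have h2 : Finsupp.linearCombination B c l' = 0 := by
      rw [show (c : _ → grI A B n) = qI A B n ∘ monN z n from funext hc]
      rw [Finsupp.linearCombination_linear_comp, LinearMap.comp_apply, qI_eq_zero_iff, ← h1]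
      exact h0
    rw [(linearIndependent_iff.1 c.linearIndependent) l' h2, Finsupp.mapDomain_zero]
  · intro n y hy
    obtain ⟨c, hc⟩ := h n
    have h1 : qI A B n ⟨y, hy⟩ ∈ Submodule.map (qI A B n) (Submodule.span B (Set.range (monN z n))) := by
      rw [Submodule.map_span, ← Set.range_comp,
        ← show (c : _ → grI A B n) = qI A B n ∘ monN z n from funext hc, c.span_eq]
      trivial
    obtain ⟨y', hy', he⟩ := h1
    have h2 : y - y'.1 ∈ Fil A B (n + 1) := by
      have := (qI_eq_zero_iff A B n (⟨y, hy⟩ - y')).1 (by rw [map_sub, he, sub_self])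
      exact this
    have h3 : y'.1 ∈ Submodule.span B (mon A z '' {p | ∑ i, p i = n}) := by
      have := Submodule.mem_map_of_mem
        (f := ((KaehlerDifferential.ideal A B ^ n).restrictScalars B).subtype) hy'
      rw [Submodule.map_span, ← Set.range_comp] at this
      refine Submodule.span_mono ?_ this
      rintro _ ⟨p, rfl⟩
      exact ⟨p.1, p.2, rfl⟩
    have h4 : y = y'.1 + (y - y'.1) := by abel
    rw [h4]
    exact Submodule.add_mem_sup h3 h2
  · ext x
    rw [LinearMap.mem_ker, AlgHom.toLinearMap_apply, Ideal.Quotient.mkₐ_eq_mk,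
      Ideal.Quotient.eq_zero_iff_mem]
    rfl

end

end Groth.Agent.Ega4late.H514.MonBasis
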